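import Groth.Agent.Ega2.H284.ConeBasic

/-!
# The canonical retraction of the pointed affine cone onto Proj: construction by glueing
-/

set_option autoImplicit false
universe u
open CategoryTheory CategoryTheory.Limits AlgebraicGeometry
open Groth.Agent.Ega2.H284.ConeBasic

namespace Groth.Agent.Ega2.H283.ConeRetr

variable {R A : Type u} [CommRing R] [CommRing A] [Algebra R A] (𝒜 : ℕ → Submodule R A) [GradedAlgebra 𝒜]

/-- The cover of the pointed cone by its charts. -/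
noncomputable def chartCover : (Cone.pointed 𝒜 : Scheme.{u}).OpenCover :=
  Scheme.Cover.mkOfCovers (Σ' (d : ℕ) (f : A), PLift (0 < d) ×' PLift (f ∈ 𝒜 d))
    (fun i => Spec (CommRingCat.of (Localization.Away i.2.1)))
    (fun i => Cone.chart i.2.2.2.down i.2.2.1.down)
    (fun x => by
      obtain ⟨d, f, hd, hf, y, hy⟩ := exists_chart_eq 𝒜 x
      exact ⟨⟨d, f, ⟨hd⟩, ⟨hf⟩⟩, y, hy⟩)
    (fun i => isOpenImmersion_chart (𝒜 := 𝒜) i.2.2.2.down i.2.2.1.down)

variable {𝒜}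

/-- The local retraction on the chart `D(f)`. -/
noncomputable def locRetr {d : ℕ} {f : A} (hf : f ∈ 𝒜 d) (hd : 0 < d) :
    Spec (CommRingCat.of (Localization.Away f)) ⟶ Proj 𝒜 :=
  Spec.map (CommRingCat.ofHom (algebraMap (HomogeneousLocalization.Away 𝒜 f) (Localization.Away f))) ≫
    Proj.awayι 𝒜 f hf hd

/-- Localization map `A_f → A_x`, `x = f g`. -/
noncomputable def locMap (f g x : A) (hx : x = f * g) : Localization.Away f →+* Localization.Away x :=
  Localization.awayLift (algebraMap A _) f (isUnit_of_dvd_unit (map_dvd _ (hx ▸ dvd_mul_right f g))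
    (IsLocalization.Away.algebraMap_isUnit x))

lemma locMap_comp (f g x : A) (hx : x = f * g) :
    (locMap f g x hx).comp (algebraMap A (Localization.Away f)) = algebraMap A (Localization.Away x) := by
  ext a
  simp [locMap, Localization.awayLift]

lemma locMap_comp_algebraMap {e : ℕ} {f g x : A} (hx : x = f * g) (hg : g ∈ 𝒜 e) :
    (locMap f g x hx).comp (algebraMap (HomogeneousLocalization.Away 𝒜 f) (Localization.Away f)) =
      (algebraMap (HomogeneousLocalization.Away 𝒜 x) (Localization.Away x)).comp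
        (HomogeneousLocalization.awayMap 𝒜 hg hx) := by
  ext a
  simp only [RingHom.comp_apply, HomogeneousLocalization.algebraMap_apply,
    HomogeneousLocalization.val_awayMap]
  rfl

lemma specMap_locMap_chart {d e : ℕ} {f g x : A} (hf : f ∈ 𝒜 d) (hd : 0 < d) (hg : g ∈ 𝒜 e) (hx : x = f * g) :
    Spec.map (CommRingCat.ofHom (locMap f g x hx)) ≫ Cone.chart (𝒜 := 𝒜) hf hd =
      Cone.chart (𝒜 := 𝒜) (hx ▸ SetLike.mul_mem_graded hf hg) (hd.trans_le (d.le_add_right e)) := by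
  rw [← cancel_mono (Cone.pointed 𝒜).ι, Category.assoc, chart_ι, chart_ι, ← Spec.map_comp,
    ← CommRingCat.ofHom_comp, locMap_comp]

lemma specMap_locMap_locRetr {d e : ℕ} {f g x : A} (hf : f ∈ 𝒜 d) (hd : 0 < d) (hg : g ∈ 𝒜 e) (hx : x = f * g) :
    Spec.map (CommRingCat.ofHom (locMap f g x hx)) ≫ locRetr (𝒜 := 𝒜) hf hd =
      locRetr (𝒜 := 𝒜) (hx ▸ SetLike.mul_mem_graded hf hg) (hd.trans_le (d.le_add_right e)) := by
  rw [locRetr, ← Category.assoc, ← Spec.map_comp, ← CommRingCat.ofHom_comp, locMap_comp_algebraMap hx hg,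
    CommRingCat.ofHom_comp, Spec.map_comp, Category.assoc, Proj.SpecMap_awayMap_awayι]
  rfl

lemma locRetr_compat {d e : ℕ} {f g : A} (hf : f ∈ 𝒜 d) (hd : 0 < d) (hg : g ∈ 𝒜 e) (he : 0 < e) :
    pullback.fst (Cone.chart (𝒜 := 𝒜) hf hd) (Cone.chart (𝒜 := 𝒜) hg he) ≫ locRetr hf hd =
      pullback.snd (Cone.chart (𝒜 := 𝒜) hf hd) (Cone.chart (𝒜 := 𝒜) hg he) ≫ locRetr hg he := by
  have i1 := isOpenImmersion_chart (𝒜 := 𝒜) hf hd
  have i2 := isOpenImmersion_chart (𝒜 := 𝒜) hg he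
  have hfg : f * g ∈ 𝒜 (d + e) := SetLike.mul_mem_graded hf hg
  have hde : 0 < d + e := hd.trans_le (d.le_add_right e)
  have i3 := isOpenImmersion_chart (𝒜 := 𝒜) hfg hde
  have hrange : Set.range (pullback.fst (Cone.chart (𝒜 := 𝒜) hf hd) (Cone.chart (𝒜 := 𝒜) hg he) ≫
      Cone.chart (𝒜 := 𝒜) hf hd).base = Set.range (Cone.chart (𝒜 := 𝒜) hfg hde).base := by
    rw [IsOpenImmersion.range_pullback_to_base_of_left]
    change ((Cone.chart (𝒜 := 𝒜) hf hd).opensRange ⊓ (Cone.chart (𝒜 := 𝒜) hg he).opensRange).1 =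
      (Cone.chart (𝒜 := 𝒜) hfg hde).opensRange.1
    rw [opensRange_chart, opensRange_chart, opensRange_chart]
    congr 1
    have : Cone.coneOpen (f * g) = Cone.coneOpen f ⊓ Cone.coneOpen g :=
      PrimeSpectrum.basicOpen_mul f g
    rw [this]
    rfl
  let e0 := IsOpenImmersion.isoOfRangeEq
    (pullback.fst (Cone.chart (𝒜 := 𝒜) hf hd) (Cone.chart (𝒜 := 𝒜) hg he) ≫ Cone.chart (𝒜 := 𝒜) hf hd)
    (Cone.chart (𝒜 := 𝒜) hfg hde) hrange
  have he0 : e0.hom ≫ Cone.chart (𝒜 := 𝒜) hfg hde =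
      pullback.fst (Cone.chart (𝒜 := 𝒜) hf hd) (Cone.chart (𝒜 := 𝒜) hg he) ≫ Cone.chart (𝒜 := 𝒜) hf hd :=
    IsOpenImmersion.isoOfRangeEq_hom_fac _ _ hrange
  have h1 : pullback.fst (Cone.chart (𝒜 := 𝒜) hf hd) (Cone.chart (𝒜 := 𝒜) hg he) =
      e0.hom ≫ Spec.map (CommRingCat.ofHom (locMap f g (f * g) rfl)) := by
    rw [← cancel_mono (Cone.chart (𝒜 := 𝒜) hf hd), Category.assoc,
      specMap_locMap_chart hf hd hg rfl]
    exact he0.symm
  have h2 : pullback.snd (Cone.chart (𝒜 := 𝒜) hf hd) (Cone.chart (𝒜 := 𝒜) hg he) =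
      e0.hom ≫ Spec.map (CommRingCat.ofHom (locMap g f (f * g) (mul_comm f g))) := by
    rw [← cancel_mono (Cone.chart (𝒜 := 𝒜) hg he), Category.assoc,
      specMap_locMap_chart hg he hf (mul_comm f g), ← pullback.condition]
    exact he0.symm
  rw [h1, h2, Category.assoc, Category.assoc, specMap_locMap_locRetr hf hd hg rfl,
    specMap_locMap_locRetr hg he hf (mul_comm f g)]
  rfl

variable (𝒜)

/-- The canonical retraction `E ⟶ Proj 𝒜`. -/
noncomputable def retr : (Cone.pointed 𝒜 : Scheme.{u}) ⟶ Proj 𝒜 :=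
  (chartCover 𝒜).glueMorphisms (fun i => locRetr (𝒜 := 𝒜) i.2.2.2.down i.2.2.1.down)
    (fun i j => locRetr_compat (𝒜 := 𝒜) i.2.2.2.down i.2.2.1.down j.2.2.2.down j.2.2.1.down)

variable {𝒜}

lemma chart_retr {d : ℕ} {f : A} (hf : f ∈ 𝒜 d) (hd : 0 < d) :
    Cone.chart hf hd ≫ retr 𝒜 =
      Spec.map (CommRingCat.ofHom (algebraMap (HomogeneousLocalization.Away 𝒜 f) (Localization.Away f))) ≫
        Proj.awayι 𝒜 f hf hd :=
  (chartCover 𝒜).ι_glueMorphisms (fun i => locRetr (𝒜 := 𝒜) i.2.2.2.down i.2.2.1.down) _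
    ⟨d, f, ⟨hd⟩, ⟨hf⟩⟩

/-- Two morphisms from the pointed cone which agree on all charts are equal. -/
lemma hom_ext_charts {X : Scheme.{u}} (π π' : (Cone.pointed 𝒜 : Scheme.{u}) ⟶ X)
    (h : ∀ (d : ℕ) (f : A) (hd : 0 < d) (hf : f ∈ 𝒜 d),
      Cone.chart (𝒜 := 𝒜) hf hd ≫ π = Cone.chart (𝒜 := 𝒜) hf hd ≫ π') : π = π' :=
  (chartCover 𝒜).hom_ext _ _ (fun i => h i.1 i.2.1 i.2.2.1.down i.2.2.2.down)

end Groth.Agent.Ega2.H283.ConeRetr
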